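import Mathlib
import Cfsg.Agent.H425.NoCommute
import Cfsg.Agent.H363.Frat

/-!
# No elements of order `p l` in the plus-type orthogonal group (helper425)
-/

set_option autoImplicit false

namespace Cfsg.Agent.H425.NonAdjL

open Module Cfsg.Agent.LieClassical.OmegaReindex Cfsg.Agent.H363.Frat

variable {F : Type*} [Field F] [Finite F] {n : ℕ}

/-- The action on vectors. -/
noncomputable def act (n : ℕ) (F : Type*) [Field F] :
    Cfsg.isometryGroup F (Cfsg.quadFormPlus n F) →* Module.End F (Fin n ⊕ Fin n → F) where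
  toFun g := Matrix.toLin' ((g : Matrix.GeneralLinearGroup (Fin n ⊕ Fin n) F) : Matrix (Fin n ⊕ Fin n) (Fin n ⊕ Fin n) F)
  map_one' := by
    simp only [Subgroup.coe_one, Units.val_one, Matrix.toLin'_one]
    rfl
  map_mul' g h := by
    simp only [Subgroup.coe_mul, Units.val_mul, Matrix.toLin'_mul]
    rfl

theorem act_injective : Function.Injective (act n F) := by
  intro g h hgh
  apply Subtype.ext
  apply Units.ext
  exact Matrix.toLin'.injective hgh

theorem nonAdj {p : ℕ} [Fact p.Prime] [CharP F p] (hp2 : p ≠ 2) (hn : 3 ≤ n) {l : ℕ} (hl : l.Prime) (hlp : l ≠ p)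
    (he : ∀ a, l ∣ Nat.card F ^ a - 1 → 2 * (n - 1) ∣ a) :
    NonAdj (Cfsg.isometryGroup F (Cfsg.quadFormPlus n F)) p l := by
  intro g hg
  have hp : p.Prime := Fact.out
  have h1 : orderOf (g ^ p) = l := by
    rw [orderOf_pow' _ hp.ne_zero, hg, Nat.gcd_mul_right_left, Nat.mul_div_cancel_left _ hp.pos]
  have h2 : orderOf (g ^ l) = p := by
    rw [orderOf_pow' _ hl.ne_zero, hg, Nat.gcd_mul_left_left, Nat.mul_div_cancel _ hl.pos]
  have hfin : finrank F (Fin n ⊕ Fin n → F) = 2 * (n - 1) + 2 := by
    rw [Module.finrank_fintype_fun_eq_card, Fintype.card_sum, Fintype.card_fin]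
    omega
  have hcomm : Commute (act n F (g ^ p)) (act n F (g ^ l)) :=
    ((Commute.refl g).pow_pow p l).map (act n F)
  have hy : act n F (g ^ p) ^ l = 1 := by rw [← map_pow, ← h1, pow_orderOf_eq_one, map_one]
  have hu : act n F (g ^ l) ^ p = 1 := by rw [← map_pow, ← h2, pow_orderOf_eq_one, map_one]
  have hy1 : act n F (g ^ p) ≠ 1 := by
    intro h
    rw [← map_one (act n F)] at h
    rw [act_injective h, orderOf_one] at h1
    exact hl.one_lt.ne h1
  have hr := NoCommute.finrank_range_le hl hlp hcomm hy hy1 hu he hfin (by omega)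
  have h3 : act n F (g ^ l) = 1 := by
    refine NoCommute.eq_one_of_finrank_range_le_one hp2 (quadPlus n F) ?_ ?_ hu hr
    · intro w hw
      have h4 := (quadPlus_nondegenerate (m := n) (F := F))
      exact h4.2 w hw
    · intro v
      have h4 := (g ^ l).2
      rw [mem_isometryGroup] at h4
      rw [coe_quadPlus]
      exact h4 v
  rw [← map_one (act n F)] at h3
  rw [act_injective h3, orderOf_one] at h2
  exact hp.one_lt.ne h2

end Cfsg.Agent.H425.NonAdjL
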