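import Cfsg.Agent.H425.CharThree
import Cfsg.Agent.H425.CharChief
import Cfsg.Agent.H676.OrdNT
import Cfsg.Agent.H977.LieOrd
import Cfsg.Agent.S0293

/-!
# The order of `D_n(3)`, `n` odd, and simple groups of similar order (helper425)
-/

set_option autoImplicit false

namespace Cfsg.Agent.H425.OrdM

open Cfsg Cfsg.Agent.OrdDiv Cfsg.Agent.H436 Cfsg.Agent.H425.PartP Cfsg.Agent.H676

universe u

/-- `N` is the order of `D_n(3)`, `n` odd. -/
structure Ord (n N : ℕ) : Prop where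
  hn : 5 ≤ n
  odd : Odd n
  eq : 2 * N = 3 ^ (n * (n - 1)) * ((3 ^ n - 1) * OrdNT.P 3 (n - 1))

variable {n N c : ℕ}

theorem Ord.pos (H : Ord n N) : N ≠ 0 := by
  rintro rfl
  have h := H.eq
  have h1 := OrdNT.P_ne (q := 3) (m := n - 1) (by norm_num)
  have h2 : 1 < 3 ^ n := Nat.one_lt_pow (by have := H.hn; omega) (by norm_num)
  have h3 : 3 ^ (n * (n - 1)) * ((3 ^ n - 1) * OrdNT.P 3 (n - 1)) ≠ 0 :=
    Nat.mul_ne_zero (by positivity) (Nat.mul_ne_zero (by omega) h1)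
  exact h3 h.symm

theorem not_dvd_P (m : ℕ) : ¬ 3 ∣ OrdNT.P 3 m := by
  unfold OrdNT.P
  rw [Nat.prime_three.prime.dvd_finsetProd_iff]
  rintro ⟨i, -, hi⟩
  have := not_dvd_sub (f := 1) Nat.prime_three one_ne_zero (i := 2 * (i + 1)) (by omega)
  rw [pow_one] at this
  exact this hi

theorem Ord.fac (H : Ord n N) : N.factorization 3 = n * (n - 1) := by
  have h1 := fac_eq (p := 3) (f := 1) (N := n * (n - 1)) (d := 2) (c := N)
    (r := (3 ^ n - 1) * OrdNT.P 3 (n - 1)) Nat.prime_three (by norm_num) (by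
      rw [Nat.prime_three.dvd_mul]
      rintro (h | h)
      · have := not_dvd_sub (f := 1) Nat.prime_three one_ne_zero (i := n) (by have := H.hn; omega)
        rw [pow_one] at this
        exact this h
      · exact not_dvd_P _ h) (by rw [pow_one]; exact H.eq) H.pos
  rw [h1, one_mul]

theorem Ord.mod_four (H : Ord n N) : (3 ^ n - 1) % 4 = 2 := by
  obtain ⟨k, hk⟩ := H.odd
  have h1 : 3 ^ n % 4 = 3 := by
    rw [hk, pow_succ, pow_mul, Nat.mul_mod, Nat.pow_mod]
    norm_num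
  have h2 : 1 ≤ 3 ^ n := Nat.one_le_pow _ _ (by norm_num)
  omega

theorem not_dvd_P_r {r : ℕ} (H : Ord n N) (hr : Prim 3 n r) : ¬ r ∣ OrdNT.P 3 (n - 1) := by
  unfold OrdNT.P
  rw [hr.prime.prime.dvd_finsetProd_iff]
  rintro ⟨i, hi, h⟩
  rw [Finset.mem_range] at hi
  have h2 := (hr.dvd_iff _).1 h
  have h7 : Nat.Coprime n 2 := Nat.Coprime.symm (Nat.coprime_two_left.mpr H.odd)
  have h3 := Nat.le_of_dvd (by omega) (h7.dvd_of_dvd_mul_left h2)
  omega

theorem Ord.r_dvd {r : ℕ} (H : Ord n N) (hr : Prim 3 n r) {k : ℕ} (hk : r ^ k ∣ N) : r ^ k ∣ 3 ^ n - 1 := by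
  have h1 : r ^ k ∣ 3 ^ (n * (n - 1)) * ((3 ^ n - 1) * OrdNT.P 3 (n - 1)) := H.eq ▸ (hk.mul_left 2)
  have h2 : Nat.Coprime (r ^ k) (3 ^ (n * (n - 1))) :=
    Nat.Coprime.pow _ _ ((hr.prime.coprime_iff_not_dvd).2 hr.not_dvd)
  have h3 : Nat.Coprime (r ^ k) (OrdNT.P 3 (n - 1)) :=
    Nat.Coprime.pow_left _ ((hr.prime.coprime_iff_not_dvd).2 (not_dvd_P_r H hr))
  exact h3.dvd_of_dvd_mul_right (h2.dvd_of_dvd_mul_left h1)

theorem Ord.r_le {r : ℕ} (H : Ord n N) (hr : Prim 3 n r) {k : ℕ} (hk : r ^ k ∣ N) : 2 * r ^ k ≤ 3 ^ n - 1 := by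
  have h1 := H.r_dvd hr hk
  have h2 : Nat.Coprime 2 (r ^ k) := by
    apply Nat.Coprime.pow_right
    rw [Nat.coprime_two_left, Nat.odd_iff]
    exact hr.odd (by have := H.hn; omega)
  have h3 : 2 ∣ 3 ^ n - 1 := by have := H.mod_four; omega
  exact Nat.le_of_dvd (by have := H.mod_four; omega) (Nat.Coprime.mul_dvd_of_dvd_of_dvd h2 h3 h1)

theorem Ord.dvd_r {r : ℕ} (H : Ord n N) (hr : Prim 3 n r) : r ∣ N := by
  have h1 : r ∣ 2 * N := H.eq ▸ (((hr.dvd dvd_rfl).mul_right _).mul_left _)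
  refine (hr.prime.dvd_mul.1 h1).resolve_left fun h2 => ?_
  have h3 := (Nat.prime_dvd_prime_iff_eq hr.prime Nat.prime_two).1 h2
  have h4 := hr.odd (by have := H.hn; omega)
  omega

theorem P_succ (m : ℕ) : OrdNT.P 3 (m + 1) = OrdNT.P 3 m * (3 ^ (2 * (m + 1)) - 1) := by
  unfold OrdNT.P
  rw [Finset.prod_range_succ]

theorem Ord.l_dvd {l : ℕ} (H : Ord n N) (hl : Prim 3 (2 * (n - 1)) l) {k : ℕ} (hk : l ^ k ∣ N) :
    l ^ k ∣ 3 ^ (n - 1) + 1 := by
  have hn := H.hn
  have h1 : l ^ k ∣ 3 ^ (n * (n - 1)) * ((3 ^ n - 1) * OrdNT.P 3 (n - 1)) := H.eq ▸ (hk.mul_left 2)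
  have h2 : Nat.Coprime (l ^ k) (3 ^ (n * (n - 1))) :=
    Nat.Coprime.pow _ _ ((hl.prime.coprime_iff_not_dvd).2 hl.not_dvd)
  have h3 : Nat.Coprime (l ^ k) (3 ^ n - 1) := by
    apply Nat.Coprime.pow_left _ ((hl.prime.coprime_iff_not_dvd).2 ?_)
    refine hl.not_dvd_sub fun h => ?_
    have := Nat.le_of_dvd (by omega) h
    omega
  obtain ⟨m, rfl⟩ : ∃ m, n = m + 2 := ⟨n - 2, by omega⟩
  have hm : m + 2 - 1 = m + 1 := by omega
  rw [hm] at hl h1 h2 ⊢
  have h4 : Nat.Coprime (l ^ k) (OrdNT.P 3 m) := by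
    apply Nat.Coprime.pow_left _ ((hl.prime.coprime_iff_not_dvd).2 ?_)
    unfold OrdNT.P
    rw [hl.prime.prime.dvd_finsetProd_iff]
    rintro ⟨i, hi, h⟩
    rw [Finset.mem_range] at hi
    have h5 := Nat.le_of_dvd (by omega) ((hl.dvd_iff _).1 h)
    omega
  have h5 : Nat.Coprime (l ^ k) (3 ^ (m + 1) - 1) := by
    apply Nat.Coprime.pow_left _ ((hl.prime.coprime_iff_not_dvd).2 ?_)
    refine hl.not_dvd_sub fun h => ?_
    have := Nat.le_of_dvd (by omega) h
    omega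
  have h6 := h3.dvd_of_dvd_mul_left (h2.dvd_of_dvd_mul_left h1)
  rw [P_succ] at h6
  have h7 := h4.dvd_of_dvd_mul_left h6
  have h8 : 3 ^ (2 * (m + 1)) - 1 = (3 ^ (m + 1) + 1) * (3 ^ (m + 1) - 1) := by
    rw [mul_comm 2, pow_mul]
    have := Nat.sq_sub_sq (3 ^ (m + 1)) 1
    rw [one_pow] at this
    exact this
  rw [h8] at h7
  exact h5.dvd_of_dvd_mul_right h7

theorem Ord.l_le {l : ℕ} (H : Ord n N) (hl : Prim 3 (2 * (n - 1)) l) {k : ℕ} (hk : l ^ k ∣ N) :
    2 * l ^ k ≤ 3 ^ (n - 1) + 1 := by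
  have hn := H.hn
  have h1 := H.l_dvd hl hk
  have h2 : Nat.Coprime 2 (l ^ k) := by
    apply Nat.Coprime.pow_right
    rw [Nat.coprime_two_left, Nat.odd_iff]
    exact hl.odd (by omega)
  have h3 : 2 ∣ 3 ^ (n - 1) + 1 := by
    have h4 : Odd (3 ^ (n - 1)) := Odd.pow (by decide)
    exact (h4.add_one).two_dvd
  exact Nat.le_of_dvd (Nat.succ_pos _) (Nat.Coprime.mul_dvd_of_dvd_of_dvd h2 h3 h1)

theorem Ord.dvd_l {l : ℕ} (H : Ord n N) (hl : Prim 3 (2 * (n - 1)) l) : l ∣ N := by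
  have hn := H.hn
  have h0 : l ∣ OrdNT.P 3 (n - 1) := by
    obtain ⟨m, rfl⟩ : ∃ m, n = m + 2 := ⟨n - 2, by omega⟩
    have hm : m + 2 - 1 = m + 1 := by omega
    rw [hm] at *
    rw [P_succ]
    exact (hl.dvd dvd_rfl).mul_left _
  have h1 : l ∣ 2 * N := H.eq ▸ ((h0.mul_left _).mul_left _)
  refine (hl.prime.dvd_mul.1 h1).resolve_left fun h2 => ?_
  have h3 := (Nat.prime_dvd_prime_iff_eq hl.prime Nat.prime_two).1 h2
  have h4 := hl.odd (by omega)
  omega

theorem Ord.ppd (H : Ord n N) {e w : ℕ} (hw : Prim 3 e w) (hd : w ∣ N) : e ≤ 2 * (n - 1) ∧ (Odd e → e ≤ n) := by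
  have hn := H.hn
  have h1 : w ∣ 3 ^ (n * (n - 1)) * ((3 ^ n - 1) * OrdNT.P 3 (n - 1)) := H.eq ▸ (hd.mul_left 2)
  rcases hw.prime.dvd_mul.1 h1 with h2 | h2
  · exact absurd h2 (hw.not_dvd_pow _)
  rcases hw.prime.dvd_mul.1 h2 with h3 | h3
  · have h4 := Nat.le_of_dvd (by omega) ((hw.dvd_iff _).1 h3)
    exact ⟨by omega, fun _ => h4⟩
  · unfold OrdNT.P at h3
    rw [hw.prime.prime.dvd_finsetProd_iff] at h3
    obtain ⟨i, hi, h⟩ := h3
    rw [Finset.mem_range] at hi
    have h4 := (hw.dvd_iff _).1 h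
    have h5 := Nat.le_of_dvd (by omega) h4
    refine ⟨by omega, fun ho => ?_⟩
    have h7 : Nat.Coprime e 2 := Nat.Coprime.symm (Nat.coprime_two_left.mpr ho)
    have h6 := Nat.le_of_dvd (by omega) (h7.dvd_of_dvd_mul_left h4)
    omega

/-- The other prime powers dividing `N`. -/
theorem Ord.part_le (H : Ord n N) {p k : ℕ} (hp : p.Prime) (hp3 : p ≠ 3) (hk : p ^ k ∣ N) :
    p ^ k ≤ 2 ^ (4 * n - 5) := by
  have hn := H.hn
  have hq : ¬ p ∣ 3 := fun h => hp3 ((Nat.prime_dvd_prime_iff_eq hp Nat.prime_three).1 h)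
  have h2 : Nat.Coprime (p ^ k) (3 ^ (n * (n - 1))) := Nat.Coprime.pow _ _ ((hp.coprime_iff_not_dvd).2 hq)
  by_cases hp2 : p = 2
  · subst hp2
    have h1 : 2 * 2 ^ k ∣ 3 ^ (n * (n - 1)) * ((3 ^ n - 1) * OrdNT.P 3 (n - 1)) :=
      H.eq ▸ (Nat.mul_dvd_mul_left 2 hk)
    have h2' : Nat.Coprime (2 * 2 ^ k) (3 ^ (n * (n - 1))) :=
      Nat.Coprime.mul_left (Nat.Coprime.pow_right _ (by norm_num)) h2
    have h3 := h2'.dvd_of_dvd_mul_left h1
    obtain ⟨t, ht⟩ : ∃ t, 3 ^ n - 1 = 2 * t := ⟨(3 ^ n - 1) / 2, by have := H.mod_four; omega⟩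
    have ht2 : Odd t := by
      rw [Nat.odd_iff]
      have := H.mod_four
      omega
    rw [ht, mul_assoc] at h3
    have h4 := Nat.dvd_of_mul_dvd_mul_left (by norm_num) h3
    have h5 : Nat.Coprime (2 ^ k) t := Nat.Coprime.pow_left _ (Nat.coprime_two_left.2 ht2)
    have h6 := OrdNT.two_le (q := 3) (m := n - 1) (by norm_num) (by norm_num) (h5.dvd_of_dvd_mul_left h4)
    refine h6.trans (le_of_eq ?_)
    obtain ⟨m, rfl⟩ : ∃ m, n = m + 2 := ⟨n - 2, by omega⟩
    rw [show m + 2 - 1 = m + 1 by omega, show m + 1 - 1 = m by omega, show 4 * (m + 2) - 5 = 3 * (m + 1) + m by omega,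
      pow_add 2 (3 * (m + 1)) m, pow_mul 2 3 (m + 1), show (2 * (3 + 1) : ℕ) = 2 ^ 3 from rfl]
  · have h1 : p ^ k ∣ 3 ^ (n * (n - 1)) * ((3 ^ n - 1) * OrdNT.P 3 (n - 1)) := H.eq ▸ (hk.mul_left 2)
    have h3 := h2.dvd_of_dvd_mul_left h1
    obtain ⟨m, rfl⟩ : ∃ m, n = m + 1 := ⟨n - 1, by omega⟩
    rw [show m + 1 - 1 = m by omega] at *
    have h4 : p ^ k ∣ OrdNT.P 3 (m + 1) := by
      refine h3.trans ?_
      rw [P_succ, mul_comm]
      refine Nat.mul_dvd_mul_left _ ?_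
      have h8 : 3 ^ (2 * (m + 1)) - 1 = (3 ^ (m + 1) + 1) * (3 ^ (m + 1) - 1) := by
        rw [mul_comm 2, pow_mul]
        have := Nat.sq_sub_sq (3 ^ (m + 1)) 1
        rw [one_pow] at this
        exact this
      rw [h8]
      exact Dvd.intro_left _ rfl
    have h6 := OrdNT.odd_le hp hp2 hq (q := 3) (m := m + 1) (by norm_num) (by omega) h4
    refine h6.trans ?_
    rw [show m + 1 - 1 = m by omega]
    calc (3 + 1) ^ (m + 1) * 2 ^ m = 2 ^ (2 * (m + 1)) * 2 ^ m := by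
          rw [pow_mul 2 2 (m + 1), show (3 + 1 : ℕ) = 2 ^ 2 from rfl]
      _ = 2 ^ (2 * (m + 1) + m) := by rw [pow_add]
      _ ≤ _ := Nat.pow_le_pow_right (by norm_num) (by omega)

theorem lcm_eq (hn : 5 ≤ n) (hodd : Odd n) : Nat.lcm n (2 * (n - 1)) = n * (2 * (n - 1)) := by
  apply Nat.Coprime.lcm_eq_mul
  apply Nat.Coprime.mul_right
  · exact Nat.Coprime.symm (Nat.coprime_two_left.mpr hodd)
  · obtain ⟨m, rfl⟩ : ∃ m, n = m + 1 := ⟨n - 1, by omega⟩
    rw [Nat.add_sub_cancel]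
    simp

/-- From the output of `CharChief.exists_simple` to the hypothesis of `CharThree.main`. -/
theorem Ord.hyp (H : Ord n N) {r l : ℕ} (hr : Prim 3 n r) (hl : Prim 3 (2 * (n - 1)) l) (hc : c ∣ N)
    (hor : r ∣ c ∨ l ∣ c)
    (h1 : r ∣ c → 3 ^ (N.factorization 3 - c.factorization 3) ∣ r ^ c.factorization r - 1)
    (h2 : l ∣ c → 3 ^ (N.factorization 3 - c.factorization 3) ∣ l ^ c.factorization l - 1)
    (h3 : ¬ r ∣ c → n ∣ c.factorization 3) : CharThree.Hyp n c := by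
  have hn := H.hn
  have hN0 := H.pos
  have hc0 : c ≠ 0 := by
    rintro rfl
    exact hN0 (Nat.eq_zero_of_zero_dvd hc)
  have hv : c.factorization 3 ≤ n * (n - 1) := by
    rw [← H.fac]
    exact (Nat.factorization_le_iff_dvd hc0 hN0).2 hc 3
  rw [H.fac] at h1 h2
  have hkey : (n - 1) ^ 2 ≤ c.factorization 3 ∧ (r ∣ c ∨ c.factorization 3 = n * (n - 1)) := by
    by_cases hrc : r ∣ c
    · refine ⟨?_, Or.inl hrc⟩
      have h4 := h1 hrc
      have h5 : r ^ c.factorization r ∣ N := (Nat.ordProj_dvd c r).trans hc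
      have h6 := H.r_le hr h5
      have h7 : 1 < r ^ c.factorization r :=
        Nat.one_lt_pow (hr.prime.factorization_pos_of_dvd hc0 hrc).ne' hr.prime.one_lt
      have h8 := Nat.le_of_dvd (by omega) h4
      have h9 : 3 ^ (n * (n - 1) - c.factorization 3) < 3 ^ n := by omega
      have h10 := (Nat.pow_lt_pow_iff_right (by norm_num : 1 < 3)).1 h9
      obtain ⟨m, rfl⟩ : ∃ m, n = m + 1 := ⟨n - 1, by omega⟩
      rw [Nat.add_sub_cancel] at *
      have h11 : (m + 1) * m = m ^ 2 + m := by ring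
      omega
    · have hlc := hor.resolve_left hrc
      have h4 := h2 hlc
      have h5 : l ^ c.factorization l ∣ N := (Nat.ordProj_dvd c l).trans hc
      have h6 := H.l_le hl h5
      have h7 : 1 < l ^ c.factorization l :=
        Nat.one_lt_pow (hl.prime.factorization_pos_of_dvd hc0 hlc).ne' hl.prime.one_lt
      have h8 := Nat.le_of_dvd (by omega) h4
      have h9 : 3 ^ (n * (n - 1) - c.factorization 3) < 3 ^ (n - 1) := by omega
      have h10 := (Nat.pow_lt_pow_iff_right (by norm_num : 1 < 3)).1 h9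
      have h11 := h3 hrc
      have h12 : n ∣ n * (n - 1) - c.factorization 3 := Nat.dvd_sub (Dvd.intro _ rfl) h11
      have h13 : n * (n - 1) - c.factorization 3 = 0 := by
        by_contra h0
        have := Nat.le_of_dvd (Nat.pos_of_ne_zero h0) h12
        omega
      have h14 : c.factorization 3 = n * (n - 1) := by omega
      refine ⟨?_, Or.inr h14⟩
      rw [h14, sq]
      exact Nat.mul_le_mul_right _ (by omega)
  refine ⟨H.hn, H.odd, hc0, hkey.1, fun e w hw hd => H.ppd hw (hd.trans hc), ?_⟩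
  rcases hkey.2 with h | h
  · exact Or.inl ⟨r, hr, h⟩
  · exact Or.inr h

theorem two_pow_lt (hn : 7 ≤ n) (hodd : Odd n) : 2 ^ (2 * (4 * n - 5)) < 3 ^ ((n - 1) ^ 2) := by
  obtain ⟨k, rfl⟩ := hodd
  have h1 : (2 * k + 1 - 1) ^ 2 = 2 * (2 * k ^ 2) := by
    rw [Nat.add_sub_cancel]; ring
  rw [h1, pow_mul 3]
  have hk : 3 ≤ k := by omega
  have h2 : 2 * (4 * (2 * k + 1) - 5) ≤ 3 * (2 * k ^ 2) := by
    have h3 : 4 * (2 * k + 1) - 5 = 8 * k - 1 := by omega
    rw [h3]
    have h4 : 2 * (8 * k - 1) = 16 * k - 2 := by omega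
    rw [h4]
    have h5 : 3 * k ≤ k ^ 2 := by rw [sq]; exact Nat.mul_le_mul_right _ hk
    omega
  calc 2 ^ (2 * (4 * (2 * k + 1) - 5)) ≤ 2 ^ (3 * (2 * k ^ 2)) := Nat.pow_le_pow_right (by norm_num) h2
    _ = 8 ^ (2 * k ^ 2) := by rw [pow_mul, show (2 : ℕ) ^ 3 = 8 from rfl]
    _ < (3 ^ 2) ^ (2 * k ^ 2) := Nat.pow_lt_pow_left (by norm_num) (by positivity)

/-- Groups of Lie type in other characteristics. -/
theorem cross (H : Ord n N) (hn7 : 7 ≤ n) {S : Type*} [Group S] [Finite S] {p : ℕ} (hp : p.Prime) (hp3 : p ≠ 3)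
    (h : IsLieTypeChar p S) (hc : Nat.card S ∣ N) (hv : (n - 1) ^ 2 ≤ (Nat.card S).factorization 3) : False := by
  have hS0 : Nat.card S ≠ 0 := Nat.card_pos.ne'
  have h1 := (H977.LieOrd.main hp h).1
  have h2 : p ^ (Nat.card S).factorization p ≤ 2 ^ (4 * n - 5) :=
    H.part_le hp hp3 ((Nat.ordProj_dvd _ p).trans hc)
  have h3 : 3 ^ (Nat.card S).factorization 3 * p ^ (Nat.card S).factorization p ≤ Nat.card S := by
    apply Nat.le_of_dvd Nat.card_pos
    refine Nat.Coprime.mul_dvd_of_dvd_of_dvd ?_ (Nat.ordProj_dvd _ 3) (Nat.ordProj_dvd _ p)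
    exact Nat.Coprime.pow _ _ ((Nat.coprime_primes Nat.prime_three hp).2 fun h => hp3 h.symm)
  set P := p ^ (Nat.card S).factorization p with hP
  have hP0 : 0 < P := pow_pos hp.pos _
  have h4 : p ^ (3 * (Nat.card S).factorization p) = P ^ 3 := by rw [mul_comm, pow_mul]
  rw [h4] at h1
  have h5 : 3 ^ ((n - 1) ^ 2) ≤ 3 ^ (Nat.card S).factorization 3 := Nat.pow_le_pow_right (by norm_num) hv
  have h6 : 3 ^ ((n - 1) ^ 2) * P < P ^ 2 * P := by
    calc 3 ^ ((n - 1) ^ 2) * P ≤ 3 ^ (Nat.card S).factorization 3 * P := Nat.mul_le_mul_right _ h5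
      _ ≤ Nat.card S := h3
      _ < P ^ 3 := h1
      _ = P ^ 2 * P := by ring
  have h7 := lt_of_mul_lt_mul_right h6 hP0.le
  have h8 : P ^ 2 ≤ 2 ^ (2 * (4 * n - 5)) := by
    rw [mul_comm, pow_mul]
    exact Nat.pow_le_pow_left h2 2
  have h9 := two_pow_lt hn7 H.odd
  omega

/-- Alternating groups. -/
theorem alt (H : Ord n N) (hn7 : 7 ≤ n) {m : ℕ} (hc : m.factorial = 2 * c) (hcN : c ∣ N)
    (hv : (n - 1) ^ 2 ≤ c.factorization 3) : False := by
  have hn := H.hn
  have := Fact.mk Nat.prime_three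
  have hm0 : m ≠ 0 := by
    rintro rfl
    rw [Nat.factorial_zero] at hc
    omega
  have hc0 : c ≠ 0 := by
    rintro rfl
    exact Nat.factorial_ne_zero m (by rw [hc])
  have h1 := sub_one_mul_padicValNat_factorial_lt_of_ne_zero 3 hm0
  have h2 : padicValNat 3 m.factorial = c.factorization 3 := by
    rw [← Nat.factorization_def _ Nat.prime_three, hc, Nat.factorization_mul (by norm_num) hc0, Finsupp.add_apply,
      Nat.factorization_eq_zero_of_not_dvd (by norm_num : ¬ 3 ∣ 2), zero_add]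
  rw [h2] at h1
  have h3 : 2 * (n - 1) ^ 2 ≤ m := by omega
  have h4 : 2 ^ ((n - 1) ^ 2) ∣ m.factorial :=
    (two_pow_dvd_factorial ((n - 1) ^ 2)).trans (Nat.factorial_dvd_factorial h3)
  have h5 : (n - 1) ^ 2 = ((n - 1) ^ 2 - 1) + 1 := by
    have : 6 ^ 2 ≤ (n - 1) ^ 2 := Nat.pow_le_pow_left (by omega) 2
    omega
  rw [hc, h5, pow_succ, mul_comm (2 ^ _)] at h4
  have h6 := Nat.dvd_of_mul_dvd_mul_left (by norm_num) h4
  have h7 := H.part_le Nat.prime_two (by norm_num) (h6.trans hcN)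
  have h8 := (Nat.pow_le_pow_iff_right (by norm_num : 1 < 2)).1 h7
  obtain ⟨k, rfl⟩ : ∃ k, n = k + 1 := ⟨n - 1, by omega⟩
  rw [Nat.add_sub_cancel] at *
  have h9 : 6 * k ≤ k ^ 2 := by rw [sq]; exact Nat.mul_le_mul_right _ (by omega)
  omega

theorem spor_not (x : Grp × ℕ) (hx : x ∈ spor) : ¬ 3 ^ 36 ∣ x.2 := by
  simp only [spor, List.mem_cons, List.not_mem_nil, or_false] at hx
  rcases hx with rfl | rfl | rfl | rfl | rfl | rfl | rfl | rfl | rfl | rfl | rfl | rfl | rfl | rfl | rfl | rfl |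
    rfl | rfl | rfl | rfl | rfl | rfl | rfl | rfl | rfl | rfl | rfl <;> norm_num

/-- The smallest case. -/
def P5 (c : ℕ) : Bool := c % 3 ^ 16 == 0 && (c % 11 == 0 || c % 3 ^ 20 == 0)

theorem v5 : valid [(2,15),(3,20),(5,2),(7,1),(11,2),(13,1),(41,1)] 1289512799941305139200 = true := by
  decide +kernel

theorem c5 : (cands [(2,15),(3,20),(5,2),(7,1),(11,2),(13,1),(41,1)] 1289512799941305139200).filter
    (fun g => P5 (ordN g)) = [.oplus 5 3] := by decide +kernel

/-- **Simple groups with the order of a section of `D_n(3)`.** -/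
theorem main (T : OrderTable.{u}) (H : Ord n N) {S : Type u} [Group S] [Finite S] [IsSimpleGroup S]
    (hK : IsKnownSimple' S) (hna : ¬ ∀ a b : S, a * b = b * a) (hc : Nat.card S ∣ N)
    (h : CharThree.Hyp n (Nat.card S)) :
    ∃ (F : Type) (_ : Field F) (_ : Fintype F), Fintype.card F = 3 ∧
      Nonempty (S ≃* POmega F (quadFormPlus n F)) := by
  have hn := H.hn
  obtain ⟨k, hk⟩ := H.odd
  rcases Nat.lt_or_ge n 7 with h7 | h7
  · obtain rfl : n = 5 := by omega
    have hN : N = 1289512799941305139200 := by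
      have h1 := H.eq
      unfold OrdNT.P at h1
      norm_num [Finset.prod_range_succ] at h1
      omega
    rw [hN] at hc
    have hv := h.v
    have h16 : 3 ^ 16 ∣ Nat.card S :=
      (Nat.prime_three.pow_dvd_iff_le_factorization h.ne).2 (by norm_num at hv; exact hv)
    have hP : P5 (Nat.card S) = true := by
      unfold P5
      rw [Bool.and_eq_true, Bool.or_eq_true, beq_iff_eq, beq_iff_eq, beq_iff_eq]
      refine ⟨Nat.mod_eq_zero_of_dvd h16, ?_⟩
      rcases h.alt with ⟨r, hr, hrc⟩ | h20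
      · left
        have h11 : r = 11 := by
          have h1 := hr.dvd (m := 5) dvd_rfl
          have h2 : (3 : ℕ) ^ 5 - 1 = 2 * 11 ^ 2 := by norm_num
          rw [h2] at h1
          rcases hr.prime.dvd_mul.1 h1 with h3 | h3
          · exact absurd h3 (hr.not_dvd_two (by norm_num))
          · exact (Nat.prime_dvd_prime_iff_eq hr.prime (by norm_num)).1 (hr.prime.dvd_of_dvd_pow h3)
        rw [h11] at hrc
        exact Nat.mod_eq_zero_of_dvd hrc
      · right
        exact Nat.mod_eq_zero_of_dvd ((Nat.prime_three.pow_dvd_iff_le_factorization h.ne).2 (by rw [h20]))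
    obtain ⟨g, hg, hr⟩ := exists_real_filter T hK hna v5 hc P5 hP
    rw [c5, List.mem_singleton] at hg
    subst hg
    obtain ⟨F, _, _, hF, e⟩ := hr
    exact ⟨F, inferInstance, inferInstance, hF, e⟩
  · have hna' : ¬ IsMulCommutative S := fun h => hna fun a b => h.is_comm.comm a b
    have hspor : ∀ g ∈ spor.map (fun x => x.1), Real g S → False := by
      intro g hg hr
      obtain ⟨x, hx, rfl⟩ := List.mem_map.1 hg
      have h1 := T.spor S x hx hr
      apply spor_not x hx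
      rw [← h1]
      refine (Nat.prime_three.pow_dvd_iff_le_factorization h.ne).2 (le_trans ?_ h.v)
      have : 6 ^ 2 ≤ (n - 1) ^ 2 := Nat.pow_le_pow_left (by omega) 2
      omega
    rcases OddHalf.Known.classify' hna' hK with ha | ⟨p, hp, hl⟩ | ht | hs
    · exfalso
      obtain ⟨m, hm, ⟨e⟩⟩ := ha
      exact alt H h7 (alt_card hm e) hc h.v
    · by_cases hp3 : p = 3
      · subst hp3
        exact CharThree.main T hl h
      · exact (cross H h7 hp hp3 hl hc h.v).elim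
    · exact (hspor .tits (by decide) ht).elim
    · exfalso
      rcases hs with h | h | h | h | h | h | h | h | h | h | h | h | h | h | h | h | h | h | h | h | h | h | h | h | h | h
      · exact hspor .m11 (by decide) h
      · exact hspor .m12 (by decide) h
      · exact hspor .m22 (by decide) h
      · exact hspor .m23 (by decide) h
      · exact hspor .m24 (by decide) h
      · exact hspor .j1 (by decide) h
      · exact hspor .j2 (by decide) h
      · exact hspor .j3 (by decide) h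
      · exact hspor .j4 (by decide) h
      · exact hspor .co1 (by decide) h
      · exact hspor .co2 (by decide) h
      · exact hspor .co3 (by decide) h
      · exact hspor .mcl (by decide) h
      · exact hspor .hs (by decide) h
      · exact hspor .suz (by decide) h
      · exact hspor .he (by decide) h
      · exact hspor .ru (by decide) h
      · exact hspor .on (by decide) h
      · exact hspor .ly (by decide) h
      · exact hspor .fi22 (by decide) h
      · exact hspor .fi23 (by decide) h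
      · exact hspor .fi24 (by decide) h
      · exact hspor .hn (by decide) h
      · exact hspor .th (by decide) h
      · exact hspor .b (by decide) h
      · exact hspor .m (by decide) h

end Cfsg.Agent.H425.OrdM
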